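import Groth.Agent.An.H862.AffTop
import Mathlib.AlgebraicGeometry.Morphisms.FiniteType

/-!
# The complex points of affine space
-/

set_option autoImplicit false
open CategoryTheory AlgebraicGeometry Topology TopologicalSpace Opposite Filter
open Groth.Agent.An.H863.PtsBasic Groth.Agent.An.H863.PtsCont

noncomputable section

namespace Groth.Agent.An.H862.AffSpace

lemma eval₂Hom_surjective (n : ℕ) :
    Function.Surjective (MvPolynomial.eval₂Hom (An.strHom (𝔸(Fin n; An.SC)))
      (AffineSpace.coord An.SC)) := by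
  have h1 := AffineSpace.SpecIso_hom_appTop (n := Fin n) (CommRingCat.of ℂ)
  have h2' : IsIso ((AffineSpace.SpecIso (Fin n) (CommRingCat.of ℂ)).hom.appTop) :=
    inferInstanceAs (IsIso ((AffineSpace.SpecIso (Fin n) (CommRingCat.of ℂ)).hom.app ⊤))
  have h2 : Function.Bijective ((AffineSpace.SpecIso (Fin n) (CommRingCat.of ℂ)).hom.appTop) :=
    ConcreteCategory.bijective_of_isIso _
  have h3 : ∀ p, MvPolynomial.eval₂Hom (An.strHom (𝔸(Fin n; An.SC))) (AffineSpace.coord An.SC) p =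
      (AffineSpace.SpecIso (Fin n) (CommRingCat.of ℂ)).hom.appTop
        ((Scheme.ΓSpecIso (CommRingCat.of (MvPolynomial (Fin n) ℂ))).inv p) := by
    intro p
    rw [h1]
    change _ = (MvPolynomial.eval₂Hom _ _)
      (((Scheme.ΓSpecIso (CommRingCat.of (MvPolynomial (Fin n) ℂ))).hom)
        ((Scheme.ΓSpecIso (CommRingCat.of (MvPolynomial (Fin n) ℂ))).inv p))
    rw [← ConcreteCategory.comp_apply, Iso.inv_hom_id]
    rfl
  intro y
  obtain ⟨q, hq⟩ := h2.2 y
  refine ⟨(Scheme.ΓSpecIso (CommRingCat.of (MvPolynomial (Fin n) ℂ))).hom q, ?_⟩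
  rw [h3, ← ConcreteCategory.comp_apply
    (Scheme.ΓSpecIso (CommRingCat.of (MvPolynomial (Fin n) ℂ))).hom, Iso.hom_inv_id]
  exact hq

theorem isHomeomorph (n : ℕ) :
    IsHomeomorph (fun (x : An.Pts (𝔸(Fin n; An.SC))) (i : Fin n) =>
      x.evTop (AffineSpace.coord An.SC i)) := by
  have hce := AffTop.isClosedEmbedding_evTop (X := 𝔸(Fin n; An.SC)) (AffineSpace.coord An.SC)
    (eval₂Hom_surjective n)
  have hsurj : Function.Surjective (fun (x : An.Pts (𝔸(Fin n; An.SC))) (i : Fin n) =>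
      x.evTop (AffineSpace.coord An.SC i)) := by
    intro z
    let v : Fin n → Γ(An.SC, ⊤) := fun i => (Scheme.ΓSpecIso (CommRingCat.of ℂ)).inv (z i)
    refine ⟨⟨AffineSpace.homOfVector (𝟙 An.SC) v, AffineSpace.homOfVector_over _ _⟩, ?_⟩
    funext i
    change (Scheme.ΓSpecIso (CommRingCat.of ℂ)).hom
      ((AffineSpace.homOfVector (𝟙 An.SC) v).appLE ⊤ ⊤ _ (AffineSpace.coord An.SC i)) = z i
    have h1 : (AffineSpace.homOfVector (𝟙 An.SC) v).appLE ⊤ ⊤ le_top =
        (AffineSpace.homOfVector (𝟙 An.SC) v).appTop := by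
      simp [Scheme.Hom.appLE, Scheme.Hom.appTop]
    rw [h1, AffineSpace.homOfVector_appTop_coord]
    change (Scheme.ΓSpecIso (CommRingCat.of ℂ)).hom
      ((Scheme.ΓSpecIso (CommRingCat.of ℂ)).inv (z i)) = z i
    rw [← ConcreteCategory.comp_apply, Iso.inv_hom_id]
    rfl
  exact isHomeomorph_iff_continuous_isClosedMap_bijective.2
    ⟨hce.continuous, hce.isClosedMap, hce.injective, hsurj⟩

end Groth.Agent.An.H862.AffSpace
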